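import Cfsg.Agent.H526.ObParity
import Cfsg.Agent.Omega.ML.InvGTwoThree

/-!
# `G₂(3)` has more than one 2-block (helper968, row `ob_g23` of S5004)

The involution `z` inverts the element `w = z · z^h` of order 13.  `C(z)` has order 576 and is covered by 1296 words
`u n v` (`OddHalf.Small.G23.cent`).  Exactly 19 elements `k` with `k² = 1` in `C(z)` are such that `k w` has order 13
(`NB.of_count`).
-/

set_option autoImplicit false
set_option Elab.async false
set_option maxRecDepth 100000

namespace Cfsg.Agent.H968.NBG23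

open Cfsg.Lie
open Cfsg.Agent.GTwoThree.Model
open Cfsg.Agent.OddHalf.Small.G23Data Cfsg.Agent.OddHalf.Small.G23Check Cfsg.Agent.OddHalf.Small.G23
open Cfsg.Agent.Omega.ML.InvGTwoThree

/-- the power of a word -/
def wpw (w : List ℕ) (n : ℕ) : List ℕ := (List.replicate n w).flatten

theorem ev_wpw (w : List ℕ) (n : ℕ) : ev y (wpw w n) = ev y w ^ n := by
  induction n with
  | zero => rw [pow_zero]; rfl
  | succ n ih =>
    have h : wpw w (n + 1) = w ++ wpw w n := by
      unfold wpw
      rw [List.replicate_succ, List.flatten_cons]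
    rw [h, ev_append, ih, pow_succ']

/-- the elements `k` with `k² = 1`, `k z = z k`, `k w` of order 13 -/
def KL : List (List ℕ) :=
  [[],
   [15, 8, 15, 15, 8, 15, 12, 19],
   [15, 8, 15, 15, 8, 15, 13, 18],
   [12, 12, 11, 12, 15, 8, 15, 15, 8, 15, 13, 18],
   [15, 8, 15, 15, 8, 15, 13, 10, 13, 13, 10, 13, 12],
   [15, 8, 15, 15, 8, 15, 13, 10, 13, 13, 10, 13, 13],
   [15, 8, 15, 15, 8, 15, 13, 10, 13, 13, 10, 13, 12, 18],
   [13, 12, 11, 12, 15, 8, 15, 15, 8, 15, 13, 10, 13, 13, 10, 13, 12, 19],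
   [19, 14, 9, 14, 12, 11, 12, 14, 9, 14, 12, 11, 12, 14, 9, 14, 15, 8, 15, 15, 8, 15, 18],
   [14, 9, 14, 12, 11, 12, 14, 9, 14, 12, 11, 12, 14, 9, 14, 12, 11, 12, 13, 10, 13, 13, 10, 13],
   [14, 9, 14, 12, 11, 12, 14, 9, 14, 12, 11, 12, 14, 9, 14, 12, 11, 12, 15, 8, 15, 15, 8, 15],
   [18, 14, 9, 14, 12, 11, 12, 14, 9, 14, 12, 11, 12, 14, 9, 14, 15, 8, 15, 15, 8, 15, 13, 19],
   [19, 14, 9, 14, 12, 11, 12, 14, 9, 14, 12, 11, 12, 14, 9, 14, 15, 8, 15, 15, 8, 15, 12, 18],
   [13, 14, 9, 14, 12, 11, 12, 14, 9, 14, 12, 11, 12, 14, 9, 14, 12, 11, 12, 13, 10, 13, 13, 10, 13, 12],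
   [13, 18, 14, 9, 14, 12, 11, 12, 14, 9, 14, 12, 11, 12, 14, 9, 14, 12, 11, 12, 15, 8, 15, 15, 8, 15, 12, 19],
   [13, 19, 14, 9, 14, 12, 11, 12, 14, 9, 14, 12, 11, 12, 14, 9, 14, 12, 11, 12, 13, 10, 13, 13, 10, 13, 12, 18],
   [14, 9, 14, 12, 11, 12, 14, 9, 14, 12, 11, 12, 14, 9, 14, 15, 8, 15, 15, 8, 15, 13, 10, 13, 13, 10, 13, 12],
   [14, 9, 14, 12, 11, 12, 14, 9, 14, 12, 11, 12, 14, 9, 14, 15, 8, 15, 15, 8, 15, 13, 10, 13, 13, 10, 13, 13],
   [18, 14, 9, 14, 12, 11, 12, 14, 9, 14, 12, 11, 12, 14, 9, 14, 15, 8, 15, 15, 8, 15, 13, 10, 13, 13, 10, 13, 19]]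

/-- a word of `C(z)` -/
def cw5 (i a d a' d' : ℕ) : List ℕ := (wx 6 a ++ wx 9 d) ++ (NL.getD i [] ++ (wx 6 a' ++ wx 9 d'))

/-- the check: `W = 1` or `W ^ 13 ≠ 1` -/
noncomputable def chkA (W : List ℕ) : Bool := nec (wpw W 13) [] || eqc W []

/-- the check: `W² ≠ 1` or `(W w) ^ 13 ≠ 1` or `W` is in the list -/
noncomputable def chkB (W : List ℕ) : Bool :=
  nec (W ++ W) [] || (nec (wpw (W ++ wu) 13) [] || KL.any fun k => eqc W k)

/-- both checks for the words with given `i` -/
noncomputable def chkI (i : ℕ) : Bool :=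
  [0, 1, 2].all fun a => [0, 1, 2].all fun d => [0, 1, 2].all fun a' => [0, 1, 2].all fun d' =>
    chkA (cw5 i a d a' d') && chkB (cw5 i a d a' d')

theorem check_C0 : chkI 0 = true := by decide +kernel

theorem check_C1 : chkI 1 = true := by decide +kernel

theorem check_C2 : chkI 2 = true := by decide +kernel

theorem check_C3 : chkI 3 = true := by decide +kernel

theorem check_C8 : chkI 8 = true := by decide +kernel

theorem check_C9 : chkI 9 = true := by decide +kernel

theorem check_C10 : chkI 10 = true := by decide +kernel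

theorem check_C11 : chkI 11 = true := by decide +kernel

theorem check_C36 : chkI 36 = true := by decide +kernel

theorem check_C37 : chkI 37 = true := by decide +kernel

theorem check_C38 : chkI 38 = true := by decide +kernel

theorem check_C39 : chkI 39 = true := by decide +kernel

theorem check_C44 : chkI 44 = true := by decide +kernel

theorem check_C45 : chkI 45 = true := by decide +kernel

theorem check_C46 : chkI 46 = true := by decide +kernel

theorem check_C47 : chkI 47 = true := by decide +kernel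

theorem check_C : NZ.all chkI = true := by
  simp only [NZ, List.all_cons, List.all_nil, check_C0, check_C1, check_C2, check_C3, check_C8, check_C9, check_C10, check_C11, check_C36, check_C37, check_C38, check_C39, check_C44, check_C45, check_C46, check_C47, Bool.and_self]

theorem check_K : KL.all (fun k => eqc (k ++ k) [] && (eqc (k ++ wz) (wz ++ k) &&
    (eqc (wpw (k ++ wu) 13) [] && nec (k ++ wu) []))) = true := by decide +kernel

theorem check_ne : (List.range 19).all (fun i => (List.range i).all fun j =>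
    nec (KL.getD i []) (KL.getD j [])) = true := by decide +kernel

theorem check_z : eqc (wz ++ wz) [] = true := by decide +kernel

theorem zz : z * z = 1 := by
  have h := eq_of_eqc check_z
  rwa [ev_append] at h

theorem z_ne : z ≠ 1 := by
  intro h
  have h1 := orderOf_wu
  rw [wu, ev_append, ev_append, ev_append, ev_wh'] at h1
  change orderOf (z * (ev y wh * z * (ev y wh)⁻¹)) = 13 at h1
  rw [h, one_mul, mul_one, mul_inv_cancel, orderOf_one] at h1
  norm_num at h1

theorem zwz : z * ev y wu * z = (ev y wu)⁻¹ := by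
  have hw : ev y wu = z * (ev y wh * z * (ev y wh)⁻¹) := by
    rw [wu, ev_append, ev_append, ev_append, ev_wh']
    rfl
  have hz : z⁻¹ = z := inv_eq_of_mul_eq_one_right zz
  rw [hw, mul_inv_rev, mul_inv_rev, mul_inv_rev, inv_inv, hz]
  calc z * (z * (ev y wh * z * (ev y wh)⁻¹)) * z = (z * z) * (ev y wh * z * (ev y wh)⁻¹) * z := by group
    _ = ev y wh * (z * (ev y wh)⁻¹) * z := by rw [zz]; group

/-- the elements of `C(z)` are the listed words -/
theorem exists_word {g : ↥Gp} (hg : g * z = z * g) : ∃ W : List ℕ, g = ev y W ∧ chkA W = true ∧ chkB W = true := by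
  obtain ⟨a, d, i, hi, a', d', -, -, h, -⟩ := cent hg
  refine ⟨cw5 i a.val d.val a'.val d'.val, ?_, ?_⟩
  · rw [h, cw5, ev_append, ev_append, ev_append, ev_append, mul_assoc, ev_append, ev_append]
  · have h1 := List.all_eq_true.1 check_C i hi
    unfold chkI at h1
    have hm : ∀ t : Fin 3, t.val ∈ ([0, 1, 2] : List ℕ) := by decide
    have h2 := List.all_eq_true.1 (List.all_eq_true.1 (List.all_eq_true.1 (List.all_eq_true.1 h1 a.val (hm a))
      d.val (hm d)) a'.val (hm a')) d'.val (hm d')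
    exact (Bool.and_eq_true _ _ ▸ h2 : _ ∧ _)

/-- no elements of order 26 -/
theorem orderOf_ne (g : ↥Gp) : orderOf g ≠ 2 * 13 := by
  intro hg
  have h1 : orderOf (g ^ 13) = 2 := by
    rw [orderOf_pow, hg]
    norm_num
  have h2 : orderOf (g ^ 2) = 13 := by
    rw [orderOf_pow, hg]
    norm_num
  obtain ⟨c, hc⟩ := exists_conj h1
  have h3 : orderOf (c * g ^ 2 * c⁻¹) = 13 := by
    have := orderOf_injective (MulAut.conj c).toMonoidHom (MulAut.conj c).injective (g ^ 2)
    rw [← h2]
    exact this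
  have h4 : (c * g ^ 2 * c⁻¹) * z = z * (c * g ^ 2 * c⁻¹) := by
    rw [← hc]
    have h5 : g ^ 2 * g ^ 13 = g ^ 13 * g ^ 2 := by rw [← pow_add, ← pow_add, add_comm]
    calc c * g ^ 2 * c⁻¹ * (c * g ^ 13 * c⁻¹) = c * (g ^ 2 * g ^ 13) * c⁻¹ := by group
      _ = c * g ^ 13 * c⁻¹ * (c * g ^ 2 * c⁻¹) := by rw [h5]; group
  obtain ⟨W, hW, hA, -⟩ := exists_word h4
  unfold chkA at hA
  rw [Bool.or_eq_true] at hA
  rw [hW] at h3
  rcases hA with hA | hA
  · apply ne_of_nec hA
    rw [ev_wpw, ← h3, pow_orderOf_eq_one]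
    rfl
  · rw [eq_of_eqc hA] at h3
    change orderOf (1 : ↥Gp) = 13 at h3
    rw [orderOf_one] at h3
    norm_num at h3

theorem KL_prop {k : List ℕ} (hk : k ∈ KL) : ev y k * ev y k = 1 ∧ ev y k * z = z * ev y k ∧
    orderOf (ev y k * ev y wu) = 13 := by
  have h := List.all_eq_true.1 check_K k hk
  rw [Bool.and_eq_true, Bool.and_eq_true, Bool.and_eq_true] at h
  obtain ⟨h1, h2, h3, h4⟩ := h
  refine ⟨?_, ?_, ?_⟩
  · have := eq_of_eqc h1
    rwa [ev_append] at this
  · have := eq_of_eqc h2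
    rwa [ev_append, ev_append] at this
  · rw [← ev_append]
    refine orderOf_eq_prime (p := 13) (hp := ⟨by norm_num⟩) ?_ ?_
    · rw [← ev_wpw]
      exact eq_of_eqc h3
    · exact ne_of_nec h4

theorem KL_length : KL.length = 19 := rfl

theorem getD_mem {i : ℕ} (hi : i < 19) : KL.getD i [] ∈ KL := by
  have h : i < KL.length := hi
  rw [List.getD_eq_getElem _ _ h]
  exact List.getElem_mem h

theorem ev_inj {i j : ℕ} (hi : i < 19) (hj : j < 19) (h : ev y (KL.getD i []) = ev y (KL.getD j [])) : i = j := by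
  have key : ∀ i < 19, ∀ j < i, ev y (KL.getD i []) ≠ ev y (KL.getD j []) := by
    intro i hi j hj
    exact ne_of_nec (List.all_eq_true.1 (List.all_eq_true.1 check_ne i (List.mem_range.2 hi)) j (List.mem_range.2 hj))
  rcases lt_trichotomy i j with h1 | h1 | h1
  · exact absurd h.symm (key j hj i h1)
  · exact h1
  · exact absurd h (key i hi j h1)

/-- the number of elements -/
theorem card_eq : Nat.card {k : ↥Gp // k * k = 1 ∧ k * z = z * k ∧ orderOf (k * ev y wu) = 13} = 19 := by
  let f : Fin 19 → {k : ↥Gp // k * k = 1 ∧ k * z = z * k ∧ orderOf (k * ev y wu) = 13} :=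
    fun i => ⟨ev y (KL.getD i.val []), KL_prop (getD_mem i.2)⟩
  have hf : Function.Bijective f := by
    constructor
    · intro i j h
      exact Fin.ext (ev_inj i.2 j.2 (congrArg Subtype.val h))
    · rintro ⟨k, h1, h2, h3⟩
      obtain ⟨W, rfl, -, hB⟩ := exists_word h2
      unfold chkB at hB
      rw [Bool.or_eq_true, Bool.or_eq_true, List.any_eq_true] at hB
      rcases hB with hB | hB | ⟨k, hk, hB⟩
      · exfalso
        apply ne_of_nec hB
        rw [ev_append, h1]
        rfl
      · exfalso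
        apply ne_of_nec hB
        rw [ev_wpw, ev_append, ← h3, pow_orderOf_eq_one]
        rfl
      · obtain ⟨i, hi, rfl⟩ := List.mem_iff_getElem.1 hk
        refine ⟨⟨i, hi⟩, Subtype.ext ?_⟩
        show ev y (KL.getD i []) = ev y W
        rw [List.getD_eq_getElem _ _ hi]
        exact (eq_of_eqc hB).symm
  rw [← Nat.card_congr (Equiv.ofBijective f hf), Nat.card_eq_fintype_card, Fintype.card_fin]

theorem nb_model : H526.OB.NB ↥Gp :=
  H526.OB.NB.of_count (r := 13) (by norm_num) (by norm_num) orderOf_ne (w := ev y wu) (t := z) orderOf_wu zz z_ne zwz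
    (by rw [card_eq]; decide)

/-- **Row `ob_g23`.** -/
theorem nb_g23 {F : Type} [Field F] [Fintype F] (hF : Fintype.card F = 3) : H526.OB.NB (Cfsg.Lie.chevG2.group F) := by
  have h3 : Fintype.card (ZMod 3) = Fintype.card F := by rw [hF]; rfl
  let φ : ZMod 3 ≃+* F := FiniteField.ringEquivOfCardEq h3
  exact H526.OB.NB.iso (ChevalleyStructure.FieldIso.groupEquiv chevG2 φ) nb_model

end Cfsg.Agent.H968.NBG23
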